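import Cfsg.Agent.H750.F43.Main
import Cfsg.Agent.H700.F43.MdlI
import Cfsg.Agent.H938.F43.FC
import Cfsg.Agent.H98.F43.BlockE

/-!
# `F₄(3)`: every element is a product of two elements of order prime to `6` (S2465; helper750)
-/

set_option autoImplicit false

namespace Cfsg.Agent.H750.F43

open Cfsg Cfsg.Lie Cfsg.Agent.H78.Pw

universe u

/-- over `ZMod 3` -/
theorem six_G3 : All 6 G3 :=
  six_of (fun _ h3 _ hp h5 hpg => H938.F43.fc_le (by simp) h3 hp h5 hpg) ⟨H700.F43.model⟩
    fun _ hg _ _ ha hb ho => H98.F43.pr_mixed (fun _ h => H903.Pw.GowF.small_three (by simp) h) hg ha hb ho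

/-- **`F₄(3)`** -/
theorem six_F4_three {K : Type u} [Field K] (hK : Nat.card K = 3) : All 6 ↥(chevF4.group K) :=
  transport six_G3 hK

end Cfsg.Agent.H750.F43
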