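import Cfsg.Agent.H750.F43.BlockU
import Cfsg.Agent.H885.Pw.DichF
import Cfsg.Agent.H903.Pw.GowF

/-!
# `F₄(3)`: every element is a product of two elements of order prime to `6` (S2465; helper750)

* `six_of` : the assembly over `ZMod 3`;
* `six_F4_three_of` : any field with three elements.
-/

set_option autoImplicit false

namespace Cfsg.Agent.H750.F43

open Cfsg Cfsg.Lie Cfsg.Agent.ChevalleyStructure Cfsg.Agent.Nodes.RGDChev Cfsg.Agent.KFacts.RgdChevCoord
  Cfsg.Agent.H537.Pw
open Cfsg.Agent.H700.F43 Cfsg.Agent.H78.Pw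

universe u

/-- no prime divisor `≥ 5` -/
theorem two_three {n : ℕ} (hn : n ≠ 0) (h : ∀ p : ℕ, p.Prime → 5 ≤ p → ¬ p ∣ n) : ∃ a b, n = 2 ^ a * 3 ^ b := by
  obtain ⟨a, m, h1, rfl⟩ := Nat.exists_eq_pow_mul_and_not_dvd hn 2 (by norm_num)
  have hm : m ≠ 0 := fun h0 => hn (by rw [h0, mul_zero])
  obtain ⟨b, m', h3, rfl⟩ := Nat.exists_eq_pow_mul_and_not_dvd hm 3 (by norm_num)
  refine ⟨a, b, ?_⟩
  have h4 : m' = 1 := by
    by_contra hne
    have hp := Nat.minFac_prime hne
    have hd := Nat.minFac_dvd m'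
    have hge := hp.two_le
    refine h m'.minFac hp ?_ (dvd_mul_of_dvd_right (dvd_mul_of_dvd_right hd _) _)
    by_contra hlt
    have h5 : m'.minFac = 2 ∨ m'.minFac = 3 ∨ m'.minFac = 4 := by omega
    rcases h5 with h5 | h5 | h5
    · rw [h5] at hd
      exact h1 (dvd_mul_of_dvd_right hd _)
    · rw [h5] at hd
      exact h3 hd
    · rw [h5] at hp
      exact absurd hp (by norm_num)
  rw [h4, mul_one]

/-- **The assembly.** -/
theorem six_of
    (hFC : ∀ g : G3, 3 ∣ orderOf g → ∀ p : ℕ, p.Prime → 5 ≤ p → p ∣ orderOf g →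
      Nat.card (Subgroup.centralizer ({g} : Set G3)) ≤ 4976985092)
    (hM : Nonempty Mdl)
    (hE : ∀ g ∈ CZ, ∀ a b : ℕ, 1 ≤ a → 1 ≤ b → orderOf g = 2 ^ a * 3 ^ b → Pr 6 g) : All 6 G3 := by
  intro g
  have hK : Nat.card F3 = 3 := by simp
  by_cases h3 : 3 ∣ orderOf g
  · by_cases h5 : ∃ p : ℕ, p.Prime ∧ 5 ≤ p ∧ p ∣ orderOf g
    · obtain ⟨p, hp, hp5, hpd⟩ := h5
      exact H903.Pw.GowF.small_three hK (hFC g h3 p hp hp5 hpd)
    · push Not at h5
      have hn : orderOf g ≠ 0 := (orderOf_pos g).ne'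
      obtain ⟨a, b, hab⟩ := two_three hn h5
      have hb : 1 ≤ b := by
        by_contra hb
        have hb0 : b = 0 := by omega
        rw [hab, hb0, pow_zero, mul_one] at h3
        have := Nat.prime_three.dvd_of_dvd_pow h3
        omega
      by_cases ha : a = 0
      · obtain ⟨M⟩ := hM
        refine pr_three M (Cfsg.Agent.S1054.result chevF4 (by simp)).1 (k := b) ?_
        rw [ha, pow_zero, one_mul] at hab
        rw [← hab, pow_orderOf_eq_one]
      · rcases H885.Pw.DichF.dich hK (by omega : 1 ≤ a) hab with ⟨x, hx⟩ | hc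
        · have h1 : x⁻¹ * g * x ∈ CZ := by
            rw [Subgroup.mem_centralizer_singleton_iff]
            have h2 : g * (x * zz * x⁻¹) = (x * zz * x⁻¹) * g := hx.eq
            calc x⁻¹ * g * x * zz = x⁻¹ * (g * (x * zz * x⁻¹)) * x := by group
              _ = x⁻¹ * ((x * zz * x⁻¹) * g) * x := by rw [h2]
              _ = zz * (x⁻¹ * g * x) := by group
          have h3 : orderOf (x⁻¹ * g * x) = orderOf g := by
            have h4 := orderOf_injective (MulAut.conj x⁻¹).toMonoidHom (MulAut.conj x⁻¹).injective g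
            have h5 : (MulAut.conj x⁻¹).toMonoidHom g = x⁻¹ * g * x := by
              change x⁻¹ * g * x⁻¹⁻¹ = _
              rw [inv_inv]
            rw [h5] at h4
            exact h4
          have h4 := hE _ h1 a b (by omega) hb (h3.trans hab)
          refine Pr.of_conj (x := x⁻¹) ?_
          rw [inv_inv]
          exact h4
        · exact H903.Pw.GowF.small_three hK hc
  · exact H903.Pw.GowF.three hK h3

/-- any field with three elements -/
theorem transport (h : All 6 G3) {K : Type u} [Field K] (hK : Nat.card K = 3) : All 6 ↥(chevF4.group K) := by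
  have : Finite K := Nat.finite_of_card_ne_zero (by rw [hK]; norm_num)
  intro g
  exact (H25.F43.Phi_pr hK).1 (h _)

end Cfsg.Agent.H750.F43
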